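import Cfsg.Agent.CentralizerD8.Basic
import Mathlib

/-!
The centralizer of a product of two transpositions in the alternating group of degree six, and
transport of generators along an isomorphism of centralizers.
-/

set_option autoImplicit false

namespace CfsgLib.CentralizerD8

open CfsgLib.StronglyEmbedded (orderOf_two_iff)

theorem Data.transport {G H : Type*} [Group G] [Finite G] [Group H] [Finite H] {α : G} {β a b : H}
    (hα : orderOf α = 2) (hD : Data β a b)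
    (e : Subgroup.centralizer ({α} : Set G) ≃* Subgroup.centralizer ({β} : Set H)) :
    ∃ a' b' : G, Data α a' b' := by
  obtain ⟨hsq, hne⟩ := orderOf_two_iff.mp hα
  set C := Subgroup.centralizer ({α} : Set G) with hC
  set C' := Subgroup.centralizer ({β} : Set H) with hC'
  have hαC : α ∈ C := Subgroup.mem_centralizer_singleton_iff.mpr rfl
  have hcomm : ∀ v, v ∈ C' → (e ⟨α, hαC⟩ : H) * v = v * (e ⟨α, hαC⟩ : H) := by
    intro v hv
    obtain ⟨c, hc⟩ := e.surjective ⟨v, hv⟩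
    have h : (⟨α, hαC⟩ : C) * c = c * ⟨α, hαC⟩ :=
      Subtype.ext (Subgroup.mem_centralizer_singleton_iff.mp c.2).symm
    have h2 := congrArg e h
    rw [map_mul, map_mul, hc] at h2
    exact congrArg Subtype.val h2
  have hz : e ⟨α, hαC⟩ = ⟨β, hD.alpha_mem⟩ := by
    rcases hD.central _ (Subgroup.mem_centralizer_singleton_iff.mp (e ⟨α, hαC⟩).2)
      (hcomm a hD.a_mem) (hcomm b hD.b_mem) with h | h
    · exact absurd (congrArg Subtype.val
        (e.injective ((Subtype.ext h : e ⟨α, hαC⟩ = 1).trans (map_one e).symm))) hne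
    · exact Subtype.ext h
  refine ⟨e.symm ⟨a, hD.a_mem⟩, e.symm ⟨b, hD.b_mem⟩, hne, hsq, ?_, ?_, ?_, ?_, Subtype.mem _, ?_⟩
  · rw [← Subgroup.coe_mul, ← map_mul,
      show (⟨a, hD.a_mem⟩ : C') * ⟨a, hD.a_mem⟩ = ⟨β, hD.alpha_mem⟩ from Subtype.ext hD.a_sq, ← hz,
      e.symm_apply_apply]
  · rw [← Subgroup.coe_mul, ← map_mul,
      show (⟨b, hD.b_mem⟩ : C') * ⟨b, hD.b_mem⟩ = 1 from Subtype.ext hD.b_sq, map_one, Subgroup.coe_one]
  · rw [← Subgroup.coe_inv, ← Subgroup.coe_inv, ← Subgroup.coe_mul, ← Subgroup.coe_mul, ← map_inv,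
      ← map_inv, ← map_mul, ← map_mul,
      show (⟨b, hD.b_mem⟩ : C') * ⟨a, hD.a_mem⟩ * (⟨b, hD.b_mem⟩ : C')⁻¹ =
        (⟨a, hD.a_mem⟩ : C')⁻¹ from Subtype.ext hD.b_inv]
  · intro h
    obtain ⟨i, hi⟩ := Subgroup.mem_zpowers_iff.mp h
    rw [← Subgroup.coe_zpow, ← map_zpow] at hi
    exact hD.b_not (Subgroup.mem_zpowers_iff.mpr
      ⟨i, congrArg Subtype.val (e.symm.injective (Subtype.ext hi))⟩)
  · rw [Nat.card_congr e.toEquiv, hD.card_C]

/-- The standard involution. -/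
def stdInv : Equiv.Perm (Fin 6) := Equiv.swap 0 1 * Equiv.swap 2 3

/-- An element of order four squaring to it. -/
def stdFour : Equiv.Perm (Fin 6) := Equiv.swap 0 2 * Equiv.swap 2 1 * Equiv.swap 1 3 * Equiv.swap 4 5

/-- An involution inverting it. -/
def stdFlip : Equiv.Perm (Fin 6) := Equiv.swap 0 1 * Equiv.swap 4 5

theorem std_facts : stdFour * stdFour = stdInv ∧ stdFlip * stdFlip = 1 ∧
    stdFlip * stdFour * stdFlip⁻¹ = stdFour⁻¹ ∧ stdFlip * stdInv = stdInv * stdFlip ∧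
    Equiv.Perm.sign stdFour = 1 ∧ Equiv.Perm.sign stdFlip = 1 ∧
    stdFlip ≠ 1 ∧ stdFlip ≠ stdFour ∧ stdFlip ≠ stdInv ∧ stdFlip ≠ stdFour⁻¹ := by
  decide +kernel

theorem std_cycleType : stdInv.cycleType = Multiset.replicate 2 2 := by
  decide +kernel

theorem std_card :
    Nat.card {x : Equiv.Perm (Fin 6) // Equiv.Perm.sign x = 1 ∧ x * stdInv = stdInv * x} = 8 := by
  rw [Nat.card_eq_fintype_card]
  decide +kernel

theorem alt_six_data (αt : alternatingGroup (Fin 6)) (hαt : orderOf αt = 2)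
    (hsupp : (αt : Equiv.Perm (Fin 6)).support.card = 4) :
    ∃ a b, Data αt a b := by
  obtain ⟨hsq, hne⟩ := orderOf_two_iff.mp hαt
  have hsq' : (αt : Equiv.Perm (Fin 6)) * αt = 1 := congrArg Subtype.val hsq
  have hct : (αt : Equiv.Perm (Fin 6)).cycleType = Multiset.replicate 2 2 := by
    have hm : ∀ m ∈ (αt : Equiv.Perm (Fin 6)).cycleType, m = 2 := fun m hm => by
      have h1 := Equiv.Perm.two_le_of_mem_cycleType hm
      have h3 : m ∣ 2 := (Equiv.Perm.dvd_of_mem_cycleType hm).trans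
        (orderOf_dvd_iff_pow_eq_one.mpr (by rw [pow_two]; exact hsq'))
      have := Nat.le_of_dvd two_pos h3
      omega
    have h := Multiset.eq_replicate_card.mpr hm
    have hs := (αt : Equiv.Perm (Fin 6)).sum_cycleType
    rw [h, Multiset.sum_replicate, smul_eq_mul, hsupp] at hs
    rw [h, show Multiset.card (αt : Equiv.Perm (Fin 6)).cycleType = 2 by omega]
  obtain ⟨σ, hσ⟩ := isConj_iff.mp
    (Equiv.Perm.isConj_iff_cycleType_eq.mpr (std_cycleType.trans hct.symm))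
  obtain ⟨f1, f2, f3, f4, f5, f6, f7, f8, f9, f10⟩ := std_facts
  have hs : ∀ p : Equiv.Perm (Fin 6), Equiv.Perm.sign p = 1 →
      σ * p * σ⁻¹ ∈ alternatingGroup (Fin 6) := fun p hp => by
    rw [Equiv.Perm.mem_alternatingGroup, map_mul, map_mul, hp, mul_one, ← map_mul, mul_inv_cancel,
      map_one]
  have hinj := (MulAut.conj σ).injective
  have h4 : σ * stdFour * σ⁻¹ * (σ * stdFour * σ⁻¹) = αt := by
    rw [← hσ, ← f1]; group
  refine ⟨⟨σ * stdFour * σ⁻¹, hs _ f5⟩, ⟨σ * stdFlip * σ⁻¹, hs _ f6⟩, hne, hsq, Subtype.ext h4,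
    Subtype.ext ?_, Subtype.ext ?_, ?_, ?_, ?_⟩
  · change σ * stdFlip * σ⁻¹ * (σ * stdFlip * σ⁻¹) = 1
    rw [show σ * stdFlip * σ⁻¹ * (σ * stdFlip * σ⁻¹) = σ * (stdFlip * stdFlip) * σ⁻¹ by group, f2]
    group
  · change σ * stdFlip * σ⁻¹ * (σ * stdFour * σ⁻¹) * (σ * stdFlip * σ⁻¹)⁻¹ = (σ * stdFour * σ⁻¹)⁻¹
    rw [show σ * stdFlip * σ⁻¹ * (σ * stdFour * σ⁻¹) * (σ * stdFlip * σ⁻¹)⁻¹ =
      σ * (stdFlip * stdFour * stdFlip⁻¹) * σ⁻¹ by group, f3]
    group
  · intro h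
    obtain ⟨i, hi⟩ := Subgroup.mem_zpowers_iff.mp h
    have hi' : (σ * stdFour * σ⁻¹) ^ i = σ * stdFlip * σ⁻¹ := congrArg Subtype.val hi
    rw [conj_zpow] at hi'
    have hi2 : stdFour ^ i = stdFlip := mul_left_cancel (mul_right_cancel hi')
    have h4' : stdFour ^ (4 : ℤ) = 1 := by decide +kernel
    have hmod : stdFour ^ i = stdFour ^ (i % 4) := by
      conv_lhs => rw [← Int.emod_add_mul_ediv i 4]
      rw [zpow_add, zpow_mul, h4', one_zpow, mul_one]
    rw [hmod] at hi2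
    rcases (show i % 4 = 0 ∨ i % 4 = 1 ∨ i % 4 = 2 ∨ i % 4 = 3 by omega) with e | e | e | e <;>
      rw [e] at hi2
    · exact f7 (hi2.symm.trans (zpow_zero _))
    · exact f8 (hi2.symm.trans (zpow_one _))
    · exact f9 (hi2.symm.trans (by rw [zpow_two, f1]))
    · refine f10 (hi2.symm.trans ?_)
      rw [eq_inv_iff_mul_eq_one, ← zpow_add_one, show (3 : ℤ) + 1 = 4 by norm_num, h4']
  · refine Subgroup.mem_centralizer_singleton_iff.mpr (Subtype.ext ?_)
    change σ * stdFlip * σ⁻¹ * αt = αt * (σ * stdFlip * σ⁻¹)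
    rw [← hσ, show σ * stdFlip * σ⁻¹ * (σ * stdInv * σ⁻¹) = σ * (stdFlip * stdInv) * σ⁻¹ by group, f4]
    group
  · rw [← std_card]
    refine Nat.card_congr
      { toFun := fun x => ⟨σ⁻¹ * ((x : alternatingGroup (Fin 6)) : Equiv.Perm (Fin 6)) * σ, ?_, ?_⟩
        invFun := fun p => ⟨⟨σ * p.1 * σ⁻¹, hs _ p.2.1⟩, ?_⟩
        left_inv := fun x => Subtype.ext (Subtype.ext (by group))
        right_inv := fun p => Subtype.ext (by group) }
    · rw [map_mul, map_mul, Equiv.Perm.mem_alternatingGroup.mp x.1.2, mul_one, ← map_mul,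
        inv_mul_cancel, map_one]
    · have h := congrArg Subtype.val (Subgroup.mem_centralizer_singleton_iff.mp x.2)
      simp only [Subgroup.coe_mul] at h
      rw [← hσ] at h
      calc σ⁻¹ * ((x : alternatingGroup (Fin 6)) : Equiv.Perm (Fin 6)) * σ * stdInv
          = σ⁻¹ * (((x : alternatingGroup (Fin 6)) : Equiv.Perm (Fin 6)) * (σ * stdInv * σ⁻¹)) * σ := by
            group
        _ = σ⁻¹ * (σ * stdInv * σ⁻¹ * ((x : alternatingGroup (Fin 6)) : Equiv.Perm (Fin 6))) * σ := by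
            rw [h]
        _ = stdInv * (σ⁻¹ * ((x : alternatingGroup (Fin 6)) : Equiv.Perm (Fin 6)) * σ) := by group
    · refine Subgroup.mem_centralizer_singleton_iff.mpr (Subtype.ext ?_)
      change σ * p.1 * σ⁻¹ * αt = αt * (σ * p.1 * σ⁻¹)
      rw [← hσ, show σ * p.1 * σ⁻¹ * (σ * stdInv * σ⁻¹) = σ * (p.1 * stdInv) * σ⁻¹ by group, p.2.2]
      group

end CfsgLib.CentralizerD8
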