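import Cfsg.Agent.CentralizerD8.Basic
import Mathlib

/-!
Generators from an isomorphism of the centralizer with the dihedral group of order eight.
-/

set_option autoImplicit false

namespace CfsgLib.CentralizerD8

theorem dihedral_center (x : DihedralGroup 4) (h : ∀ y, x * y = y * x) (h1 : x ≠ 1) :
    x = DihedralGroup.r 2 := by
  revert x
  decide

theorem dihedral_facts : (DihedralGroup.r 1 : DihedralGroup 4) * DihedralGroup.r 1 = DihedralGroup.r 2 ∧
    (DihedralGroup.sr 0 : DihedralGroup 4) * DihedralGroup.sr 0 = 1 ∧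
    (DihedralGroup.sr 0 : DihedralGroup 4) * DihedralGroup.r 1 * (DihedralGroup.sr 0)⁻¹ =
      (DihedralGroup.r 1)⁻¹ := by decide

theorem dihedral_not_mem (i : ℤ) :
    (DihedralGroup.r 1 : DihedralGroup 4) ^ i ≠ DihedralGroup.sr 0 := by
  rw [DihedralGroup.r_one_zpow]
  simp

theorem exists_data {G : Type*} [Group G] [Finite G] {α : G} (hα : orderOf α = 2)
    (e : Subgroup.centralizer ({α} : Set G) ≃* DihedralGroup 4) :
    ∃ a b : G, Data α a b := by
  set C := Subgroup.centralizer ({α} : Set G) with hC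
  obtain ⟨hsq, hne⟩ := CfsgLib.StronglyEmbedded.orderOf_two_iff.mp hα
  obtain ⟨f1, f2, f3⟩ := dihedral_facts
  have hαC : α ∈ C := Subgroup.mem_centralizer_singleton_iff.mpr rfl
  have hz : e ⟨α, hαC⟩ = DihedralGroup.r 2 := by
    refine dihedral_center _ (fun y => ?_) fun h => ?_
    · obtain ⟨c, rfl⟩ := e.surjective y
      rw [← map_mul, ← map_mul]
      exact congrArg e (Subtype.ext (Subgroup.mem_centralizer_singleton_iff.mp c.2).symm)
    · exact hne (congrArg Subtype.val (e.injective (h.trans (map_one e).symm)))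
  refine ⟨e.symm (DihedralGroup.r 1), e.symm (DihedralGroup.sr 0), hne, hsq, ?_, ?_, ?_, ?_,
    Subtype.mem _, ?_⟩
  · rw [← Subgroup.coe_mul, ← map_mul, f1, ← hz, e.symm_apply_apply]
  · rw [← Subgroup.coe_mul, ← map_mul, f2, map_one, Subgroup.coe_one]
  · rw [← Subgroup.coe_inv, ← Subgroup.coe_inv, ← Subgroup.coe_mul, ← Subgroup.coe_mul, ← map_inv,
      ← map_inv, ← map_mul, ← map_mul, f3]
  · intro h
    obtain ⟨i, hi⟩ := Subgroup.mem_zpowers_iff.mp h
    rw [← Subgroup.coe_zpow, ← map_zpow] at hi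
    exact dihedral_not_mem i (e.symm.injective (Subtype.ext hi))
  · rw [Nat.card_congr e.toEquiv, DihedralGroup.nat_card]

end CfsgLib.CentralizerD8
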